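import Cfsg.Agent.H253.SK.FixTwo
import Cfsg.Agent.H163.PG.PslAut
import Cfsg.Agent.H282.SK.Tools
/-!
# S3010: the small families in odd characteristic

`exists_comm` : if `Cx V K` and `K ≅ PSL₂(q)`, `PSL₃(q)`, `PSp₄(q)`, `PSU₃(q)`, `q` a power of `p` odd, then some
`v ∈ V`, `v ≠ 1`, commutes with a nontrivial `p`-element of `K`.
-/

set_option autoImplicit false
set_option linter.unusedSectionVars false

universe u v

namespace Cfsg.Agent.H253.SK.OddSmall

open Subgroup
open Cfsg.Agent.H253.SK.FixTwo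

/-! ### `PSL₂` -/

section Two

open Cfsg
open Cfsg.Agent.H966 Cfsg.Agent.H966.PSLAut
open Cfsg.Agent.ClassicalGeometry.AutPSL.Root
open Cfsg.Agent.ClassicalGeometry.AutPSL.Auto
open Cfsg.Agent.ClassicalGeometry.AutPSL.Main
open Cfsg.Agent.ClassicalGeometry.AutPSL.Images
open Matrix

theorem trace_zero {F : Type*} [Field F] {A : Matrix (Fin 2) (Fin 2) F} (h1 : ¬ ∃ r : F, scalar (Fin 2) r = A)
    (h2 : ∃ r : F, scalar (Fin 2) r = A * A) : A 0 0 + A 1 1 = 0 := by
  obtain ⟨r, hr⟩ := h2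
  by_contra hne
  apply h1
  have e : ∀ i j, (scalar (Fin 2) r) i j = A i 0 * A 0 j + A i 1 * A 1 j := by
    intro i j
    rw [hr, Matrix.mul_apply, Fin.sum_univ_two]
  have e01 : A 0 1 * (A 0 0 + A 1 1) = 0 := by
    have := e 0 1
    rw [scalar_apply, diagonal_apply_ne _ (by decide)] at this
    linear_combination -this
  have e10 : A 1 0 * (A 0 0 + A 1 1) = 0 := by
    have := e 1 0
    rw [scalar_apply, diagonal_apply_ne _ (by decide)] at this
    linear_combination -this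
  have e00 : (A 0 0 - A 1 1) * (A 0 0 + A 1 1) = 0 := by
    have a0 := e 0 0
    have a1 := e 1 1
    rw [scalar_apply, diagonal_apply_eq] at a0 a1
    linear_combination a1 - a0
  have f01 := (mul_eq_zero.1 e01).resolve_right hne
  have f10 := (mul_eq_zero.1 e10).resolve_right hne
  have f00 := (mul_eq_zero.1 e00).resolve_right hne
  refine ⟨A 0 0, ?_⟩
  ext i j
  fin_cases i <;> fin_cases j
  · simp
  · simp [f01]
  · simp [f10]
  · simp
    linear_combination f00

theorem anti {F : Type*} [Field F] {A B : Matrix (Fin 2) (Fin 2) F} (hA : A 0 0 + A 1 1 = 0)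
    (hB : B 0 0 + B 1 1 = 0) (hAB : (A * B) 0 0 + (A * B) 1 1 = 0) : A * B = -(B * A) := by
  rw [Matrix.mul_apply, Matrix.mul_apply, Fin.sum_univ_two, Fin.sum_univ_two] at hAB
  ext i j
  rw [Matrix.neg_apply, Matrix.mul_apply, Matrix.mul_apply, Fin.sum_univ_two, Fin.sum_univ_two]
  fin_cases i <;> fin_cases j
  · simp only [Fin.zero_eta, Fin.isValue]
    have h1 : A 1 1 = - A 0 0 := by linear_combination hA
    have h2 : B 1 1 = - B 0 0 := by linear_combination hB
    rw [h1, h2] at hAB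
    linear_combination hAB
  · simp only [Fin.zero_eta, Fin.isValue, Fin.mk_one]
    linear_combination A 0 1 * hB + B 0 1 * hA
  · simp only [Fin.zero_eta, Fin.isValue, Fin.mk_one]
    linear_combination A 1 0 * hB + B 1 0 * hA
  · simp only [Fin.isValue, Fin.mk_one]
    have h1 : A 1 1 = - A 0 0 := by linear_combination hA
    have h2 : B 1 1 = - B 0 0 := by linear_combination hB
    rw [h1, h2] at hAB ⊢
    linear_combination hAB

theorem exists_not_mem {G : Type*} [Group G] [Finite G] {V : Subgroup G} (S : Finset G)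
    (h : S.card < Nat.card V) : ∃ a ∈ V, a ∉ S := by
  by_contra hcon
  push Not at hcon
  have h1 : (V : Set G) ⊆ (S : Set G) := fun a ha => hcon a ha
  have h2 := Set.ncard_le_ncard h1 S.finite_toSet
  rw [Set.ncard_coe_finset] at h2
  have h3 : Nat.card V = (V : Set G).ncard := rfl
  omega

/-- an elementary abelian 2-group of automorphisms of `PSL₂(q)`, `q` odd, of order at least 8 has an element
fixing a nontrivial `p`-element -/
theorem psl_two {F : Type u} [Field F] [Fintype F] {p : ℕ} [hp : Fact p.Prime] [CharP F p] (hp2 : p ≠ 2)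
    {V : Subgroup (MulAut (Matrix.ProjectiveSpecialLinearGroup (Fin 2) F))} (hV2 : ∀ a ∈ V, a * a = 1)
    (hc : 8 ≤ Nat.card V) :
    ∃ a ∈ V, a ≠ 1 ∧ ∃ x : Matrix.ProjectiveSpecialLinearGroup (Fin 2) F, x ≠ 1 ∧ a x = x ∧ x ^ p = 1 := by
  classical
  by_contra hcon
  push Not at hcon
  have hfin : Finite (Matrix.ProjectiveSpecialLinearGroup (Fin 2) F) := Quotient.finite _
  have h20 : (2 : F) ≠ 0 := by
    intro h0
    have h1 : ((2 : ℕ) : F) = 0 := by exact_mod_cast h0
    rw [CharP.cast_eq_zero_iff F p] at h1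
    exact hp2 ((Nat.prime_dvd_prime_iff_eq hp.out Nat.prime_two).1 h1)
  have hlin : ∀ a ∈ V, a ≠ 1 → ∃ A : GL (Fin 2) F, lift (cj A) = a := by
    intro a ha ha1
    have ho : orderOf a = 2 := orderOf_eq_prime (by rw [pow_two]; exact hV2 a ha) ha1
    rcases H163.PG.psl_types (F := F) (n := 2) le_rfl Nat.prime_two ho with h | ⟨σ, hσ, δ, hδ, hδa⟩ | ⟨-, h⟩ |
        ⟨-, σ, -, -, h⟩
    · exact mem_inndiag.1 h
    · exfalso
      have h01 : (0 : Fin 2) ≠ 1 := by decide
      refine hcon a ha ha1 (δ (pr (Matrix.SpecialLinearGroup.transvection h01 (1 : F)))) ?_ ?_ ?_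
      · rw [Ne, EmbeddingLike.map_eq_one_iff]
        intro h
        have h1 : pr (Matrix.SpecialLinearGroup.transvection h01 (1 : F)) =
            pr (Matrix.SpecialLinearGroup.transvection h01 (0 : F)) := by
          rw [h]
          symm
          have h6 := Matrix.SpecialLinearGroup.transvection_add h01 (0 : F) 0
          rw [add_zero] at h6
          rw [left_eq_mul.1 h6, map_one]
        exact one_ne_zero (pr_transvection_injective h01 h1)
      · rw [hδa, MulAut.mul_apply, MulAut.mul_apply, MulAut.inv_apply_self, lift_pr, fld_transvection, map_one]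
      · rw [← map_pow, ← map_pow]
        have h5 : Matrix.SpecialLinearGroup.transvection h01 (0 : F) = 1 := by
          have h6 := Matrix.SpecialLinearGroup.transvection_add h01 (0 : F) 0
          rw [add_zero] at h6
          exact left_eq_mul.1 h6
        have h3 : ∀ k : ℕ, (Matrix.SpecialLinearGroup.transvection h01 (1 : F)) ^ k =
            Matrix.SpecialLinearGroup.transvection h01 (k : F) := by
          intro k
          induction k with
          | zero => rw [pow_zero, Nat.cast_zero, h5]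
          | succ k ih => rw [pow_succ, ih, Nat.cast_succ, Matrix.SpecialLinearGroup.transvection_add]
        have h4 := h3 p
        rw [CharP.cast_eq_zero F p] at h4
        rw [h4, h5, map_one, map_one]
    · exact absurd h.1 (by norm_num)
    · exact absurd h.1 (by norm_num)
  have hker : ∀ A : GL (Fin 2) F, lift (cj A) = 1 → ∃ r : F, scalar (Fin 2) r = (A : Matrix (Fin 2) (Fin 2) F) := by
    intro A hA
    have h1 : lift (cj A * fld (1 : F ≃+* F)) = lift (fld (1 : F ≃+* F)) := by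
      rw [map_one, mul_one, hA, map_one]
    exact (injective_aux h1).1
  have htr : ∀ A : GL (Fin 2) F, lift (cj A) ∈ V → lift (cj A) ≠ 1 →
      (A : Matrix (Fin 2) (Fin 2) F) 0 0 + (A : Matrix (Fin 2) (Fin 2) F) 1 1 = 0 := by
    intro A hA hA1
    refine trace_zero (fun ⟨r, hr⟩ => hA1 ?_) ?_
    · rw [cj_eq_one_of_scalar hr, map_one]
    · have h1 := hV2 _ hA
      rw [← map_mul, ← map_mul] at h1
      exact hker _ h1
  have hanti : ∀ A B : GL (Fin 2) F, lift (cj A) ∈ V → lift (cj B) ∈ V → lift (cj A) ≠ 1 → lift (cj B) ≠ 1 →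
      lift (cj A) * lift (cj B) ≠ 1 → (A : Matrix (Fin 2) (Fin 2) F) * B = -((B : Matrix (Fin 2) (Fin 2) F) * A) := by
    intro A B hA hB hA1 hB1 hAB
    refine anti (htr A hA hA1) (htr B hB hB1) ?_
    rw [← map_mul, ← map_mul] at hAB
    exact htr (A * B) (by rw [map_mul, map_mul]; exact mul_mem hA hB) hAB
  obtain ⟨a, ha, ha1⟩ := exists_not_mem (V := V) {1} (by rw [Finset.card_singleton]; omega)
  rw [Finset.mem_singleton] at ha1
  obtain ⟨b, hb, hb1⟩ := exists_not_mem (V := V) {1, a}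
    (lt_of_le_of_lt Finset.card_le_two (by omega))
  simp only [Finset.mem_insert, Finset.mem_singleton, not_or] at hb1
  obtain ⟨c, hc', hc1⟩ := exists_not_mem (V := V) {1, a, b, a * b}
    (lt_of_le_of_lt Finset.card_le_four (by omega))
  simp only [Finset.mem_insert, Finset.mem_singleton, not_or] at hc1
  obtain ⟨A, rfl⟩ := hlin a ha ha1
  obtain ⟨B, rfl⟩ := hlin b hb hb1.1
  obtain ⟨C, rfl⟩ := hlin c hc' hc1.1
  have hinv : ∀ a ∈ V, a⁻¹ = a := fun a ha => inv_eq_of_mul_eq_one_right (hV2 a ha)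
  have hne : ∀ a b, a ∈ V → b ∈ V → b ≠ a → a * b ≠ 1 := by
    intro a b ha hb hab h
    apply hab
    rw [← inv_eq_of_mul_eq_one_right h, hinv a ha]
  have e1 := hanti A B ha hb ha1 hb1.1 (hne _ _ ha hb hb1.2)
  have e2 := hanti A C ha hc' ha1 hc1.1 (hne _ _ ha hc' hc1.2.1)
  have e3 := hanti B C hb hc' hb1.1 hc1.1 (hne _ _ hb hc' hc1.2.2.1)
  have hAB : lift (cj (A * B)) ∈ V := by rw [map_mul, map_mul]; exact mul_mem ha hb
  have e4 := hanti (A * B) C hAB hc' (by rw [map_mul, map_mul]; exact hne _ _ ha hb hb1.2) hc1.1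
    (by rw [map_mul, map_mul]; exact hne _ _ (mul_mem ha hb) hc' hc1.2.2.2)
  -- `A B C = - C A B = A C B = - A B C`
  have e5 : (A : Matrix (Fin 2) (Fin 2) F) * B * C = -((A : Matrix (Fin 2) (Fin 2) F) * B * C) := by
    calc (A : Matrix (Fin 2) (Fin 2) F) * B * C = -((C : Matrix (Fin 2) (Fin 2) F) * (A * B)) := e4
      _ = -(((C : Matrix (Fin 2) (Fin 2) F) * A) * B) := by rw [mul_assoc]
      _ = ((A : Matrix (Fin 2) (Fin 2) F) * C) * B := by
        rw [show (C : Matrix (Fin 2) (Fin 2) F) * A = -((A : Matrix (Fin 2) (Fin 2) F) * C) by rw [e2, neg_neg]]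
        simp
      _ = (A : Matrix (Fin 2) (Fin 2) F) * (C * B) := by rw [mul_assoc]
      _ = -((A : Matrix (Fin 2) (Fin 2) F) * B * C) := by
        rw [show (C : Matrix (Fin 2) (Fin 2) F) * B = -((B : Matrix (Fin 2) (Fin 2) F) * C) by rw [e3, neg_neg]]
        simp [mul_assoc]
  have e6 : (2 : F) • ((A : Matrix (Fin 2) (Fin 2) F) * B * C) = 0 := by
    rw [two_smul]
    nth_rewrite 1 [e5]
    simp
  have e7 : ((A * B * C : GL (Fin 2) F) : Matrix (Fin 2) (Fin 2) F) = 0 := by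
    have := (smul_eq_zero.1 e6).resolve_left h20
    rw [Units.val_mul, Units.val_mul]
    exact this
  have e8 : ((A * B * C : GL (Fin 2) F) : Matrix (Fin 2) (Fin 2) F) * ((A * B * C : GL (Fin 2) F)⁻¹ : GL (Fin 2) F) = 1 := by
    rw [← Units.val_mul, mul_inv_cancel, Units.val_one]
  rw [e7, zero_mul] at e8
  exact zero_ne_one e8

end Two

/-! ### The statement -/

open Cfsg Cfsg.Agent.H282.SK

section

variable {G : Type u} [Group G] [Finite G] {V K : Subgroup G} {p : ℕ} [hp : Fact p.Prime]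

/-- an involution acting on `K` with `Fixes p K` commutes with a nontrivial `p`-element of `K` -/
theorem exists_of_fixes (hK : K.Normal) (h : Fixes p K) {v : G} (hv : v * v = 1) :
    ∃ y ∈ K, y ≠ 1 ∧ (∃ n : ℕ, y ^ p ^ n = 1) ∧ v * y = y * v := by
  have := hK
  obtain ⟨a, h1, h2, n, h3⟩ := h (MulAut.conjNormal v : MulAut K) (by
    intro g
    rw [← MulAut.mul_apply, ← map_mul, hv, map_one, MulAut.one_apply])
  refine ⟨a, a.2, fun h => h1 (Subtype.ext h), ⟨n, by rw [← SubgroupClass.coe_pow, h3]; rfl⟩, ?_⟩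
  have h4 := congrArg Subtype.val h2
  rw [MulAut.conjNormal_apply] at h4
  exact mul_inv_eq_iff_eq_mul.1 h4

/-- `PSL₂(q)`, `q` odd -/
theorem exists_comm_two (h : Cx V K) (hp2 : p ≠ 2) {F : Type v} [Field F] [Fintype F] [CharP F p]
    (e : K ≃* Matrix.ProjectiveSpecialLinearGroup (Fin 2) F) :
    ∃ v ∈ V, v ≠ 1 ∧ ∃ y ∈ K, y ≠ 1 ∧ (∃ n : ℕ, y ^ p ^ n = 1) ∧ v * y = y * v := by
  obtain ⟨φ, hφ, -, hφ2⟩ := h.exists_toAut e
  obtain ⟨_, ⟨a, ha, rfl⟩, ha1, x, hx1, hax, hxp⟩ := psl_two (p := p) (F := F) hp2 (V := V.map φ) (by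
      rintro _ ⟨a, ha, rfl⟩
      rw [← map_mul, h.sq ha, map_one]) (by
      rw [Subgroup.card_map_of_injective hφ]
      exact h.card)
  refine ⟨a, ha, fun h1 => ha1 (by rw [h1, map_one]), e.symm x, (e.symm x).2, ?_, ⟨1, ?_⟩, ?_⟩
  · intro h1
    apply hx1
    have h2 : e.symm x = 1 := Subtype.ext h1
    rwa [EmbeddingLike.map_eq_one_iff] at h2
  · rw [pow_one, ← SubgroupClass.coe_pow, ← map_pow, hxp, map_one]
    rfl
  · obtain ⟨h3, h4⟩ := hφ2 a (e.symm x)
    rw [MulEquiv.apply_symm_apply, hax] at h4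
    have h5 : e.symm x = ⟨a * (e.symm x : K) * a⁻¹, h3⟩ := by
      apply e.injective
      rw [MulEquiv.apply_symm_apply]
      exact h4
    have h6 : ((e.symm x : K) : G) = a * (e.symm x : K) * a⁻¹ := congrArg Subtype.val h5
    exact (mul_inv_eq_iff_eq_mul.1 h6.symm)

/-- **The small families**: some `v ∈ V#` commutes with a nontrivial `p`-element of `K`. -/
theorem exists_comm (h : Cx V K) (hp2 : p ≠ 2) {F : Type} [Field F] [Fintype F] [CharP F p]
    (hK : Nonempty (K ≃* Matrix.ProjectiveSpecialLinearGroup (Fin 2) F) ∨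
      Nonempty (K ≃* Matrix.ProjectiveSpecialLinearGroup (Fin 3) F) ∨ Nonempty (K ≃* PSp 2 F) ∨
      ∃ q : ℕ, Fintype.card F = q ^ 2 ∧ Nonempty (K ≃* PSU 3 F q)) :
    ∃ v ∈ V, v ≠ 1 ∧ ∃ y ∈ K, y ≠ 1 ∧ (∃ n : ℕ, y ^ p ^ n = 1) ∧ v * y = y * v := by
  have key : Fixes p K → ∃ v ∈ V, v ≠ 1 ∧ ∃ y ∈ K, y ≠ 1 ∧ (∃ n : ℕ, y ^ p ^ n = 1) ∧ v * y = y * v := by
    intro hf
    obtain ⟨v, hv1⟩ := Subgroup.ne_bot_iff_exists_ne_one.1 h.V_ne_bot
    exact ⟨v, v.2, fun h1 => hv1 (Subtype.ext h1), exists_of_fixes h.norm hf (h.sq v.2)⟩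
  have hs : IsSimpleGroup K := h.simple
  rcases hK with ⟨⟨e⟩⟩ | ⟨⟨e⟩⟩ | ⟨⟨e⟩⟩ | ⟨q, hq, ⟨e⟩⟩
  · exact exists_comm_two h hp2 e
  · have : IsSimpleGroup (Matrix.ProjectiveSpecialLinearGroup (Fin 3) F) := e.symm.isSimpleGroup
    exact key ((psl_three hp2).of_equiv e.symm)
  · have : IsSimpleGroup (PSp 2 F) := e.symm.isSimpleGroup
    exact key ((psp_four hp2).of_equiv e.symm)
  · have : IsSimpleGroup (PSU 3 F q) := e.symm.isSimpleGroup
    exact key ((psu_three hq hp2).of_equiv e.symm)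

theorem charP_of {F : Type v} [Field F] [Fintype F] {n : ℕ} (h : Fintype.card F = p ^ n) : CharP F p := by
  obtain ⟨r, hr⟩ := CharP.exists F
  obtain ⟨m, hrp, hm⟩ := FiniteField.card F r
  have h1 : r ∣ p ^ n := by
    rw [← h, hm]
    exact dvd_pow_self r m.pos.ne'
  rwa [← (Nat.prime_dvd_prime_iff_eq hrp hp.out).1 (hrp.dvd_of_dvd_pow h1)]

/-- the same with the list of S2876 -/
theorem exists_comm' (h : Cx V K) (hp2 : p ≠ 2)
    (hK : (∃ (F : Type) (_ : Field F) (_ : Fintype F) (n : ℕ), 1 ≤ n ∧ Fintype.card F = p ^ n ∧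
        Nonempty (K ≃* Matrix.ProjectiveSpecialLinearGroup (Fin 2) F)) ∨
      (∃ (F : Type) (_ : Field F) (_ : Fintype F), Fintype.card F = p ∧
        (Nonempty (K ≃* Matrix.ProjectiveSpecialLinearGroup (Fin 3) F) ∨ Nonempty (K ≃* PSp 2 F))) ∨
      (∃ (F : Type) (_ : Field F) (_ : Fintype F), Fintype.card F = p ^ 2 ∧ Nonempty (K ≃* PSU 3 F p))) :
    ∃ v ∈ V, v ≠ 1 ∧ ∃ y ∈ K, y ≠ 1 ∧ (∃ n : ℕ, y ^ p ^ n = 1) ∧ v * y = y * v := by
  rcases hK with ⟨F, i1, i2, n, -, hF, hK⟩ | ⟨F, i1, i2, hF, hK | hK⟩ | ⟨F, i1, i2, hF, hK⟩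
  · have := charP_of hF
    exact exists_comm (F := F) h hp2 (Or.inl hK)
  · have := charP_of (n := 1) (by rw [hF, pow_one])
    exact exists_comm (F := F) h hp2 (Or.inr (Or.inl hK))
  · have := charP_of (n := 1) (by rw [hF, pow_one])
    exact exists_comm (F := F) h hp2 (Or.inr (Or.inr (Or.inl hK)))
  · have := charP_of hF
    exact exists_comm (F := F) h hp2 (Or.inr (Or.inr (Or.inr ⟨p, hF, hK⟩)))

end

end Cfsg.Agent.H253.SK.OddSmall
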