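import Cfsg.Agent.H737.SK.E6Core
import Cfsg.Agent.H297.SK.DichE6

/-!
# S3010, `²E₆(2)`, `J = [0, 5]`: two elements of `C(v)` (helper253, (T5-C))
-/

set_option autoImplicit false
set_option linter.unusedSectionVars false
set_option maxRecDepth 20000

namespace Cfsg.Agent.H253.SK.TwE5C

open CoxeterSystem Cfsg.Agent.ChevalleyStructure.CoxeterGeom Cfsg.Agent.Tits.Roots Cfsg.Agent.Tits.Core
  Cfsg.Agent.Tits.Exchange Cfsg.Agent.Nodes.Reps Cfsg.Agent.Nodes.BNOf Cfsg.Agent.Nodes.Coroot Cfsg.Agent.Nodes.Comb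
  Cfsg.Agent.KFacts.RgdField Cfsg.Agent.KFacts.RgdCent Cfsg.Agent.KFacts.ChevTwo Cfsg.Agent.KFacts.RgdSys
  Cfsg.Agent.KFacts.ChevTwoInst Cfsg.Agent.H737.SK.O2 Cfsg.Agent.H737.SK.Gen
  Cfsg.Agent.H737.SK.E6
open Cfsg.Lie Cfsg.Agent.ChevalleyStructure Cfsg.Agent.ChevalleyStructure.Elts
  Cfsg.Agent.ChevalleyStructure.RootVec Cfsg.Agent.ChevalleyStructure.FieldIso
  Cfsg.Agent.ChevalleyStructure.CoxeterGeomTypes
open Cfsg.Agent.Nodes Cfsg.Agent.Nodes.RGDChev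
open scoped commutatorElement

universe u

section

variable {W Y K : Type*} [Group W] [Group Y] [Field K] {M : CoxeterMatrix (Fin 6)}
variable {cs : CoxeterSystem M W} {h : IsCartan M A6} {e : (Fin 6 → ℤ) → K → Y}
  {T : Subgroup Y} {n : Fin 6 → Y} {X : (Fin 6 → ℤ) → Subgroup Y}

theorem wa : ([2] : List (Fin 6)).foldr (step A6) (sr 0) = ![1, 0, 1, 0, 0, 0] := by decide +kernel
theorem wb : ([4] : List (Fin 6)).foldr (step A6) (sr 5) = ![0, 0, 0, 0, 1, 1] := by decide +kernel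
theorem ra : IsRoot cs h ![1, 0, 1, 0, 0, 0] := isRoot_word wa
theorem rb : IsRoot cs h ![0, 0, 0, 0, 1, 1] := isRoot_word wb
theorem w2 : ([2] : List (Fin 6)).foldr (step A6) (sr 2) = -sr 2 := by decide +kernel
theorem w4 : ([4] : List (Fin 6)).foldr (step A6) (sr 4) = -sr 4 := by decide +kernel

variable [Finite W] {R : RGD cs h 2 T n X} (S : Sys R e)

include S

theorem comm_any {x y : Fin 6 → ℤ} (hx : IsRoot cs h x) (hy : IsRoot cs h y) (h1 : 0 ≤ cpr cs h x y) (u v : K) :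
    e x u * e y v = e y v * e x u := S.data.comm_of_nonneg hx hy h1 u v

/-- the two products do not commute -/
theorem final_ne : (e (-sr 4) 1 * e (-sr 2) 1) * (e ![1, 0, 1, 0, 0, 0] 1 * e ![0, 0, 0, 0, 1, 1] 1) ≠
    (e ![1, 0, 1, 0, 0, 0] 1 * e ![0, 0, 0, 0, 1, 1] 1) * (e (-sr 4) 1 * e (-sr 2) 1) := by
  intro h1
  have r0 := isRoot_sr cs h (0 : Fin 6)
  have r2 := (isRoot_sr cs h (2 : Fin 6)).neg
  have r4 := (isRoot_sr cs h (4 : Fin 6)).neg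
  have r5 := isRoot_sr cs h (5 : Fin 6)
  have ra : IsRoot cs h ![1, 0, 1, 0, 0, 0] := ra
  have rb : IsRoot cs h ![0, 0, 0, 0, 1, 1] := rb
  have c2a : e (-sr 2) 1 * e ![1, 0, 1, 0, 0, 0] 1 = e (sr 0) 1 * (e ![1, 0, 1, 0, 0, 0] 1 * e (-sr 2) 1) :=
    mul_of_neg S r2 ra (cpr_word wa (by decide +kernel)) (cpr_word w2 (by decide +kernel)) (by decide)
  have c4b : e (-sr 4) 1 * e ![0, 0, 0, 0, 1, 1] 1 = e (sr 5) 1 * (e ![0, 0, 0, 0, 1, 1] 1 * e (-sr 4) 1) :=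
    mul_of_neg S r4 rb (cpr_word wb (by decide +kernel)) (cpr_word w4 (by decide +kernel)) (by decide)
  have c40 := comm_of_zero S r4 r0 (le_of_eq (Eq.symm (by rw [cpr_sr]; decide +kernel)))
  have c4a := comm_of_zero S r4 ra (le_of_eq (Eq.symm (cpr_word wa (by decide +kernel))))
  have c2b := comm_of_zero S r2 rb (le_of_eq (Eq.symm (cpr_word wb (by decide +kernel))))
  have ca5 := comm_of_zero S ra r5 (le_of_eq (Eq.symm (by rw [cpr_sr]; decide +kernel)))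
  obtain ⟨p, hp⟩ : ∃ p, p = e (-sr 4) (1 : K) := ⟨_, rfl⟩
  obtain ⟨q, hq⟩ : ∃ q, q = e (-sr 2) (1 : K) := ⟨_, rfl⟩
  obtain ⟨a, ha⟩ : ∃ a, a = e ![1, 0, 1, 0, 0, 0] (1 : K) := ⟨_, rfl⟩
  obtain ⟨b, hb⟩ : ∃ b, b = e ![0, 0, 0, 0, 1, 1] (1 : K) := ⟨_, rfl⟩
  obtain ⟨x, hx⟩ : ∃ x, x = e (sr 0) (1 : K) := ⟨_, rfl⟩
  obtain ⟨y, hy⟩ : ∃ y, y = e (sr 5) (1 : K) := ⟨_, rfl⟩
  rw [← hp, ← hq, ← ha, ← hb] at h1
  rw [← hq, ← ha, ← hx] at c2a
  rw [← hp, ← hb, ← hy] at c4b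
  rw [← hp, ← hx] at c40
  rw [← hp, ← ha] at c4a
  rw [← hq, ← hb] at c2b
  rw [← ha, ← hy] at ca5
  have h3 : p * q * (a * b) = x * y * (a * b * (p * q)) := by
    calc p * q * (a * b) = p * (q * a) * b := by group
      _ = p * (x * (a * q)) * b := by rw [c2a]
      _ = (p * x) * a * (q * b) := by group
      _ = (x * p) * a * (b * q) := by rw [c40, c2b]
      _ = x * (p * a) * b * q := by group
      _ = x * (a * p) * b * q := by rw [c4a]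
      _ = x * a * (p * b) * q := by group
      _ = x * a * (y * (b * p)) * q := by rw [c4b]
      _ = x * (a * y) * b * p * q := by group
      _ = x * (y * a) * b * p * q := by rw [ca5]
      _ = x * y * (a * b * (p * q)) := by group
  rw [h3] at h1
  have h4 : x * y = 1 := mul_eq_right.1 h1
  have h5 : x = y := by
    have h6 : y * y = 1 := by rw [hy]; exact S.data.sq r5 1
    calc x = x * y * y⁻¹ := by group
      _ = y⁻¹ := by rw [h4, one_mul]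
      _ = y := inv_eq_of_mul_eq_one_right h6
  rw [hx, hy] at h5
  exact ne_sr S (show (0 : Fin 6) ≠ 5 by decide) h5.symm

variable {γ : MulAut Y} (hγ : Gra cs h e γ s6)

include hγ

/-- **`J = [0, 5]`, `q = 2`**: two elements of `C(v)` in a subgroup `L` containing the generators of the twisted group. -/
theorem exists_c {L : Subgroup Y} (h0 : ∀ u : K, e (sr 0) u * e (sr 5) (u ^ 2) ∈ L)
    (hn0 : ∀ u : K, e (-sr 0) u * e (-sr 5) (u ^ 2) ∈ L) (h2 : ∀ u : K, e (sr 2) u * e (sr 4) (u ^ 2) ∈ L)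
    (hn2 : ∀ u : K, e (-sr 2) u * e (-sr 4) (u ^ 2) ∈ L) {ζ : K} (hζ : ζ + ζ ^ 2 = 1) :
    ∃ c₁ ∈ L, ∃ c₂ ∈ L,
    c₁ * (pr [(0 : Fin 6), 5] fun j => nel e (sr j)) = (pr [(0 : Fin 6), 5] fun j => nel e (sr j)) * c₁ ∧
    c₂ * (pr [(0 : Fin 6), 5] fun j => nel e (sr j)) = (pr [(0 : Fin 6), 5] fun j => nel e (sr j)) * c₂ ∧
    (c₁ * (γ c₁)⁻¹) * (c₂ * (γ c₂)⁻¹) ≠ (c₂ * (γ c₂)⁻¹) * (c₁ * (γ c₁)⁻¹) := by
  have hJ : Orth cs h [(0 : Fin 6), 5] := by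
    refine ⟨by decide, ?_⟩
    have key : ∀ i ∈ [(0 : Fin 6), 5], ∀ j ∈ [(0 : Fin 6), 5], i ≠ j → pairing A6 j (sr i) = 0 := by decide +kernel
    intro i hi j hj hij
    rw [cpr_sr]
    exact key i hi j hj hij
  have hJ2 : Orth cs h [(2 : Fin 6), 4] := by
    refine ⟨by decide, ?_⟩
    have key : ∀ i ∈ [(2 : Fin 6), 4], ∀ j ∈ [(2 : Fin 6), 4], i ≠ j → pairing A6 j (sr i) = 0 := by decide +kernel
    intro i hi j hj hij
    rw [cpr_sr]
    exact key i hi j hj hij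
  have r0 := isRoot_sr cs h (0 : Fin 6)
  have r5 := isRoot_sr cs h (5 : Fin 6)
  have r2 := isRoot_sr cs h (2 : Fin 6)
  have r4 := isRoot_sr cs h (4 : Fin 6)
  have ra : IsRoot cs h ![1, 0, 1, 0, 0, 0] := ra
  have rb : IsRoot cs h ![0, 0, 0, 0, 1, 1] := rb
  -- products over orthogonal pairs
  have hpr : ∀ {i j : Fin 6}, Orth cs h [i, j] → (∀ u : K, e (sr i) u * e (sr j) (u ^ 2) ∈ L) →
      (∀ u : K, e (-sr i) u * e (-sr j) (u ^ 2) ∈ L) → (pr [i, j] fun k => nel e (sr k)) ∈ L := by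
    intro i j hO hp hn
    have hc := hO.2
    have hij : i ≠ j := by
      have := hO.1
      rintro rfl
      simp at this
    have e1 : (pr [i, j] fun k => nel e (sr k)) =
        (pr [i, j] fun k => e (sr k) 1) * (pr [i, j] fun k => e (-sr k) 1) * (pr [i, j] fun k => e (sr k) 1) := by
      rw [pr_mul hO.1 (commL S hO (fun j _ => e_mem S j _) fun j _ => e_neg_mem S j _),
        pr_mul hO.1 (commL S hO (fun j _ => mul_mem (e_mem S j _) (e_neg_mem S j _)) fun j _ => e_mem S j _)]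
      refine pr_congr fun k _ => ?_
      rw [nel_def]
    have e2 : (pr [i, j] fun k => e (sr k) (1 : K)) ∈ L := by
      rw [pr_cons, pr_cons, pr_nil, mul_one]
      have := hp 1
      rwa [one_pow] at this
    have e3 : (pr [i, j] fun k => e (-sr k) (1 : K)) ∈ L := by
      rw [pr_cons, pr_cons, pr_nil, mul_one]
      have := hn 1
      rwa [one_pow] at this
    rw [e1]
    exact mul_mem (mul_mem e2 e3) e2
  have hn05 := hpr hJ h0 hn0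
  have hn24 := hpr hJ2 h2 hn2
  -- the second element
  have hab : e ![1, 0, 1, 0, 0, 0] ζ * e ![0, 0, 0, 0, 1, 1] (ζ ^ 2) ∈ L := by
    have h1 := word_act S [2, 4] r0 ζ
    have h3 := word_act S [2, 4] r5 (ζ ^ 2)
    rw [rep_word, show ([2, 4] : List (Fin 6)).foldr (step A6) (sr 0) = ![1, 0, 1, 0, 0, 0] by decide +kernel] at h1
    rw [rep_word, show ([2, 4] : List (Fin 6)).foldr (step A6) (sr 5) = ![0, 0, 0, 0, 1, 1] by decide +kernel] at h3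
    rw [← h1, ← h3]
    have h4 := mul_mem (mul_mem hn24 (h0 ζ)) (inv_mem hn24)
    refine (congrArg (· ∈ L) ?_).mp h4
    group
  obtain ⟨g, hg⟩ : ∃ g, g = pr [(0 : Fin 6), 5] fun j => e (sr j) 1 * nel e (sr j) := ⟨_, rfl⟩
  have hγg : γ g = g := by
    rw [hg]
    refine hγ.pr S hJ (by decide) (fun j _ => mul_mem (e_mem S j _) (nel_mem S j)) fun j => ?_
    rw [map_mul, hγ.nel, hγ.map _ (isRoot_sr cs h j), sr_comp hγ.invol]
  have hgL : g ∈ L := by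
    rw [hg, ← pr_mul hJ.1 (commL S hJ (fun j _ => e_mem S j _) fun j _ => nel_mem S j)]
    refine mul_mem ?_ hn05
    rw [pr_cons, pr_cons, pr_nil, mul_one]
    have := h0 1
    rwa [one_pow] at this
  have hv : (pr [(0 : Fin 6), 5] fun j => nel e (sr j)) = g * (e (sr 0) 1 * e (sr 5) 1) * g⁻¹ := by
    have h1 : (pr [(0 : Fin 6), 5] fun j => e (sr j) 1) = e (sr 0) 1 * e (sr 5) 1 := by
      rw [pr_cons, pr_cons, pr_nil, mul_one]
    rw [nJ_conj S hJ, hg, h1]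
  have hgr : ∀ c, c * (e (sr 0) 1 * e (sr 5) 1) = (e (sr 0) 1 * e (sr 5) 1) * c →
      (g * c * g⁻¹) * (pr [(0 : Fin 6), 5] fun j => nel e (sr j)) =
        (pr [(0 : Fin 6), 5] fun j => nel e (sr j)) * (g * c * g⁻¹) := by
    intro c hc
    rw [hv]
    calc (g * c * g⁻¹) * (g * (e (sr 0) 1 * e (sr 5) 1) * g⁻¹) = g * (c * (e (sr 0) 1 * e (sr 5) 1)) * g⁻¹ := by group
      _ = g * ((e (sr 0) 1 * e (sr 5) 1) * c) * g⁻¹ := by rw [hc]
      _ = _ := by group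
  -- the graph automorphism
  have g4 : ∀ u, γ (e (-sr 4) u) = e (-sr 2) u := by
    intro u
    rw [hγ.map _ r4.neg]
    congr 1
    decide
  have g2 : ∀ u, γ (e (-sr 2) u) = e (-sr 4) u := by
    intro u
    rw [hγ.map _ r2.neg]
    congr 1
    decide
  have ga : ∀ u, γ (e ![1, 0, 1, 0, 0, 0] u) = e ![0, 0, 0, 0, 1, 1] u := by
    intro u
    rw [hγ.map _ ra]
    congr 1
    decide
  have gb : ∀ u, γ (e ![0, 0, 0, 0, 1, 1] u) = e ![1, 0, 1, 0, 0, 0] u := by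
    intro u
    rw [hγ.map _ rb]
    congr 1
    decide
  have c42 : ∀ u v, e (-sr 4) u * e (-sr 2) v = e (-sr 2) v * e (-sr 4) u :=
    comm_any S r4.neg r2.neg (le_of_eq (Eq.symm (cpr_word w2 (by decide +kernel))))
  have cab : ∀ u v, e ![1, 0, 1, 0, 0, 0] u * e ![0, 0, 0, 0, 1, 1] v = e ![0, 0, 0, 0, 1, 1] v * e ![1, 0, 1, 0, 0, 0] u :=
    comm_any S ra rb (le_of_eq (Eq.symm (cpr_word wb (by decide +kernel))))
  -- the differences
  have hζ' : ζ ^ 2 + ζ = 1 := by rw [add_comm, hζ]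
  have d1 : (e (-sr 2) ζ * e (-sr 4) (ζ ^ 2)) * (γ (e (-sr 2) ζ * e (-sr 4) (ζ ^ 2)))⁻¹ = e (-sr 4) 1 * e (-sr 2) 1 := by
    rw [map_mul, g2, g4, mul_inv_rev, S.data.inv r2.neg, S.data.inv r4.neg]
    calc e (-sr 2) ζ * e (-sr 4) (ζ ^ 2) * (e (-sr 2) (ζ ^ 2) * e (-sr 4) ζ)
        = e (-sr 2) ζ * (e (-sr 4) (ζ ^ 2) * e (-sr 2) (ζ ^ 2)) * e (-sr 4) ζ := by group
      _ = e (-sr 2) ζ * (e (-sr 2) (ζ ^ 2) * e (-sr 4) (ζ ^ 2)) * e (-sr 4) ζ := by rw [c42]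
      _ = (e (-sr 2) ζ * e (-sr 2) (ζ ^ 2)) * (e (-sr 4) (ζ ^ 2) * e (-sr 4) ζ) := by group
      _ = e (-sr 4) 1 * e (-sr 2) 1 := by
        rw [← S.data.add _ r2.neg, ← S.data.add _ r4.neg, hζ, hζ', c42]
  have d2 : (e ![1, 0, 1, 0, 0, 0] ζ * e ![0, 0, 0, 0, 1, 1] (ζ ^ 2)) *
      (γ (e ![1, 0, 1, 0, 0, 0] ζ * e ![0, 0, 0, 0, 1, 1] (ζ ^ 2)))⁻¹ =
      e ![1, 0, 1, 0, 0, 0] 1 * e ![0, 0, 0, 0, 1, 1] 1 := by
    rw [map_mul, ga, gb, mul_inv_rev, S.data.inv ra, S.data.inv rb]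
    calc e ![1, 0, 1, 0, 0, 0] ζ * e ![0, 0, 0, 0, 1, 1] (ζ ^ 2) * (e ![1, 0, 1, 0, 0, 0] (ζ ^ 2) * e ![0, 0, 0, 0, 1, 1] ζ)
        = e ![1, 0, 1, 0, 0, 0] ζ * (e ![0, 0, 0, 0, 1, 1] (ζ ^ 2) * e ![1, 0, 1, 0, 0, 0] (ζ ^ 2)) *
            e ![0, 0, 0, 0, 1, 1] ζ := by group
      _ = e ![1, 0, 1, 0, 0, 0] ζ * (e ![1, 0, 1, 0, 0, 0] (ζ ^ 2) * e ![0, 0, 0, 0, 1, 1] (ζ ^ 2)) *
            e ![0, 0, 0, 0, 1, 1] ζ := by rw [cab]
      _ = (e ![1, 0, 1, 0, 0, 0] ζ * e ![1, 0, 1, 0, 0, 0] (ζ ^ 2)) * (e ![0, 0, 0, 0, 1, 1] (ζ ^ 2) *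
            e ![0, 0, 0, 0, 1, 1] ζ) := by group
      _ = _ := by rw [← S.data.add _ ra, ← S.data.add _ rb, hζ, hζ']
  refine ⟨g * (e (-sr 2) ζ * e (-sr 4) (ζ ^ 2)) * g⁻¹, mul_mem (mul_mem hgL (hn2 ζ)) (inv_mem hgL),
    g * (e ![1, 0, 1, 0, 0, 0] ζ * e ![0, 0, 0, 0, 1, 1] (ζ ^ 2)) * g⁻¹, mul_mem (mul_mem hgL hab) (inv_mem hgL),
    hgr _ ?_, hgr _ ?_, ?_⟩
  · have a1 := comm_any S r4.neg r0 (le_of_eq (Eq.symm (by rw [cpr_sr]; decide +kernel))) (ζ ^ 2) 1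
    have a2 := comm_any S r4.neg r5 (by rw [cpr_sr]; decide +kernel) (ζ ^ 2) 1
    have a3 := comm_any S r2.neg r0 (by rw [cpr_sr]; decide +kernel) ζ 1
    have a4 := comm_any S r2.neg r5 (le_of_eq (Eq.symm (by rw [cpr_sr]; decide +kernel))) ζ 1
    have b1 : Commute (e (-sr 4) (ζ ^ 2)) (e (sr 0) 1 * e (sr 5) 1) := Commute.mul_right a1 a2
    have b2 : Commute (e (-sr 2) ζ) (e (sr 0) 1 * e (sr 5) 1) := Commute.mul_right a3 a4
    exact Commute.mul_left b2 b1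
  · have a1 := comm_any S ra r0 (by rw [cpr_sr]; decide +kernel) ζ 1
    have a2 := comm_any S ra r5 (by rw [cpr_sr]; decide +kernel) ζ 1
    have a3 := comm_any S rb r0 (by rw [cpr_sr]; decide +kernel) (ζ ^ 2) 1
    have a4 := comm_any S rb r5 (by rw [cpr_sr]; decide +kernel) (ζ ^ 2) 1
    have b1 : Commute (e ![1, 0, 1, 0, 0, 0] ζ) (e (sr 0) 1 * e (sr 5) 1) := Commute.mul_right a1 a2
    have b2 : Commute (e ![0, 0, 0, 0, 1, 1] (ζ ^ 2)) (e (sr 0) 1 * e (sr 5) 1) := Commute.mul_right a3 a4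
    exact Commute.mul_left b1 b2
  · have h3 : ∀ c : Y, (g * c * g⁻¹) * (γ (g * c * g⁻¹))⁻¹ = g * (c * (γ c)⁻¹) * g⁻¹ := by
      intro c
      rw [map_mul, map_mul, map_inv, hγg]
      group
    rw [h3, h3, d1, d2]
    intro h4
    apply final_ne S
    have h5 : ∀ a b : Y, g * a * g⁻¹ * (g * b * g⁻¹) = g * (a * b) * g⁻¹ := fun a b => by group
    rw [h5, h5] at h4
    exact mul_left_cancel (mul_right_cancel h4)

end

/-! ### the group -/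

open Cfsg.Agent.H129.TwE6Fr (gam)
open Cfsg.Agent.ChevalleyStructure.TwE6Basic (pair_mem)

variable {K : Type u} [Field K]

theorem pair_eg (hp : IsType chevE6 6 CoxeterMatrix.E₆) (u : K) :
    (eg hp K (sr 0) u * eg hp K (sr 5) (u ^ 2) ∈ (twistedE6 K 2).subgroupOf (chevE6.group K) ∧
    eg hp K (-sr 0) u * eg hp K (-sr 5) (u ^ 2) ∈ (twistedE6 K 2).subgroupOf (chevE6.group K)) ∧
    (eg hp K (sr 2) u * eg hp K (sr 4) (u ^ 2) ∈ (twistedE6 K 2).subgroupOf (chevE6.group K) ∧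
    eg hp K (-sr 2) u * eg hp K (-sr 4) (u ^ 2) ∈ (twistedE6 K 2).subgroupOf (chevE6.group K)) := by
  have h1 := pair_mem (q := 2) u (rs := (56, 36)) (by simp)
  have h2 := pair_mem (q := 2) u (rs := (15, 35)) (by simp)
  have h3 := pair_mem (q := 2) u (rs := (42, 37)) (by simp)
  have h4 := pair_mem (q := 2) u (rs := (29, 34)) (by simp)
  refine ⟨⟨?_, ?_⟩, ⟨?_, ?_⟩⟩ <;>
    rw [Subgroup.mem_subgroupOf, Subgroup.coe_mul, coe_eg, coe_eg]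
  · rw [ev_sr hp, ev_sr hp]
    exact h1
  · rw [ev_neg_sr hp, ev_neg_sr hp]
    exact h2
  · rw [ev_sr hp, ev_sr hp]
    exact h3
  · rw [ev_neg_sr hp, ev_neg_sr hp]
    exact h4

/-- **(T5-C)** -/
theorem t5c {W : Type*} [Group W] (cs : CoxeterSystem CoxeterMatrix.E₆ W) [CharP K 2] [Finite K]
    (hp : IsType chevE6 6 CoxeterMatrix.E₆) (hK : Nat.card K = 4) :
    ∃ c₁ ∈ (twistedE6 K 2).subgroupOf (chevE6.group K), ∃ c₂ ∈ (twistedE6 K 2).subgroupOf (chevE6.group K),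
      c₁ * (pr [(0 : Fin 6), 5] fun j => nel (eg hp K) (sr j)) = (pr [(0 : Fin 6), 5] fun j => nel (eg hp K) (sr j)) * c₁ ∧
      c₂ * (pr [(0 : Fin 6), 5] fun j => nel (eg hp K) (sr j)) = (pr [(0 : Fin 6), 5] fun j => nel (eg hp K) (sr j)) * c₂ ∧
      (c₁ * (gam K c₁)⁻¹) * (c₂ * (gam K c₂)⁻¹) ≠ (c₂ * (gam K c₂)⁻¹) * (c₁ * (gam K c₁)⁻¹) := by
  classical
  have : Fact (Nat.Prime 2) := ⟨Nat.prime_two⟩
  have hW : Finite W := finite_W hp cs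
  have S := sys (K := K) hp twoOK_E6 cs
  have := Fintype.ofFinite K
  obtain ⟨ζ, hζ⟩ : ∃ ζ : K, ζ + ζ ^ 2 = 1 := by
    obtain ⟨ζ, h0, h1⟩ : ∃ ζ : K, ζ ≠ 0 ∧ ζ ≠ 1 := by
      by_contra hcon
      push Not at hcon
      have h2 : (Finset.univ : Finset K) ⊆ ({0, 1} : Finset K) := by
        intro a _
        rw [Finset.mem_insert, Finset.mem_singleton]
        by_cases ha : a = 0
        · exact Or.inl ha
        · exact Or.inr (hcon a ha)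
      have h3 := Finset.card_le_card h2
      have h4 : ({0, 1} : Finset K).card ≤ 2 := Finset.card_le_two
      rw [Finset.card_univ, ← Nat.card_eq_fintype_card, hK] at h3
      omega
    refine ⟨ζ, ?_⟩
    have h2 : ζ ^ 3 = 1 := by
      have h3 := FiniteField.pow_card_sub_one_eq_one ζ h0
      rwa [← Nat.card_eq_fintype_card, hK] at h3
    have h3 : (ζ - 1) * (ζ ^ 2 + ζ + 1) = 0 := by ring_nf; rw [h2]; ring
    have h4 : ζ ^ 2 + ζ + 1 = 0 := (mul_eq_zero.1 h3).resolve_left (sub_ne_zero.2 h1)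
    calc ζ + ζ ^ 2 = (ζ ^ 2 + ζ + 1) - 1 := by ring
      _ = -1 := by rw [h4, zero_sub]
      _ = 1 := CharTwo.neg_eq 1
  have k1 : ∀ u : K, eg hp K (sr 0) u * eg hp K (sr 5) (u ^ 2) ∈ (twistedE6 K 2).subgroupOf (chevE6.group K) :=
    fun u => (pair_eg hp u).1.1
  have k2 : ∀ u : K, eg hp K (-sr 0) u * eg hp K (-sr 5) (u ^ 2) ∈ (twistedE6 K 2).subgroupOf (chevE6.group K) :=
    fun u => (pair_eg hp u).1.2
  have k3 : ∀ u : K, eg hp K (sr 2) u * eg hp K (sr 4) (u ^ 2) ∈ (twistedE6 K 2).subgroupOf (chevE6.group K) :=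
    fun u => (pair_eg hp u).2.1
  have k4 : ∀ u : K, eg hp K (-sr 2) u * eg hp K (-sr 4) (u ^ 2) ∈ (twistedE6 K 2).subgroupOf (chevE6.group K) :=
    fun u => (pair_eg hp u).2.2
  have hg : Gra cs hp.isCartan (eg hp K) (gam K) s6 := H297.SK.DichE6.gra_E6 cs
  exact exists_c S hg k1 k2 k3 k4 hζ

end Cfsg.Agent.H253.SK.TwE5C
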